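import Cfsg.Agent.H962.ExG2
import Cfsg.Agent.H962.ExD4
import Cfsg.Agent.H962.ExUnique
import Cfsg.Agent.S3637
import Cfsg.Agent.S1054
import Cfsg.Agent.S1055
import Cfsg.Agent.S1071

/-!
# Recognition of `G₂(q)`, `F₄(q)`, `E₈(q)`, `³D₄(q)` by the order and the element orders (helper962)
-/

set_option autoImplicit false

namespace Cfsg.Agent.H962.ExRecog

open Subgroup Cfsg Cfsg.Agent.OrdDiv Cfsg.Lie
open Cfsg.Agent.H902 Cfsg.Agent.H902.Art Cfsg.Agent.H364 Cfsg.Agent.H962 Cfsg.Agent.H962.IdSame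

universe u

variable {G : Type u} [Group G] [Finite G]

/-- from the simple factor to the group -/
theorem finish {T : Type*} [Group T] [Finite T] [IsSimpleGroup T] {Y : Sh} {p f : ℕ}
    (hY : Art.Real Y p f (Nat.card T)) (hE : IsExc Y) (hcard : Nat.card G = Nat.card T)
    (h : ∃ (K : Subgroup G) (_ : K.Normal) (H : Subgroup (G ⧸ K)), IsSimpleGroup H ∧ Nat.card H = Nat.card G) :
    Nonempty (G ≃* T) := by
  obtain ⟨K, hK, H, hs, hc⟩ := h
  obtain ⟨e⟩ := PSUFour.equiv_of_card K H hc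
  obtain ⟨e'⟩ := ExUnique.exc_unique (S := H) (T := T) hY hE (hc.trans hcard)
  exact ⟨e.trans e'⟩

theorem recog_F4 {F : Type} [Field F] [Fintype F] (hcard : Nat.card G = Nat.card ↥(chevF4.group F))
    (hs1 : ∀ x : G, ∃ y : ↥(chevF4.group F), orderOf y = orderOf x)
    (hs2 : ∀ y : ↥(chevF4.group F), ∃ x : G, orderOf x = orderOf y) : Nonempty (G ≃* ↥(chevF4.group F)) := by
  obtain ⟨p, f, hp, hf, hF⟩ := Names.exists_pp F
  have hY := ExF4.f4_real F hp hf hF
  have hfin : Finite ↥(chevF4.group F) := Nat.finite_of_card_ne_zero hY.M_ne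
  have hsimple : IsSimpleGroup ↥(chevF4.group F) := (Cfsg.Agent.S1054.result chevF4 (by simp)).1
  exact finish hY IsExc.F4 hcard (ExF4.core hF (hcard ▸ hY) hcard hs1 hs2)

theorem recog_G2 {F : Type} [Field F] [Fintype F] (h3 : 3 ≤ Fintype.card F)
    (hcard : Nat.card G = Nat.card ↥(chevG2.group F))
    (hs1 : ∀ x : G, ∃ y : ↥(chevG2.group F), orderOf y = orderOf x)
    (hs2 : ∀ y : ↥(chevG2.group F), ∃ x : G, orderOf x = orderOf y) : Nonempty (G ≃* ↥(chevG2.group F)) := by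
  obtain ⟨p, f, hp, hf, hF⟩ := Names.exists_pp F
  have hY := ExG2.g2_real F hp hf hF (hF ▸ h3)
  have hfin : Finite ↥(chevG2.group F) := Nat.finite_of_card_ne_zero hY.M_ne
  have hsimple : IsSimpleGroup ↥(chevG2.group F) := by
    refine (Cfsg.Agent.S1055.result ?_).1
    by_contra hcon
    push Not at hcon
    classical
    have h1 : (Finset.univ : Finset F) ⊆ {0, 1} := by
      intro a _
      by_cases ha : a = 0
      · simp [ha]
      · simp [hcon a ha]
    have h2 := Finset.card_le_card h1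
    have h4 : ({0, 1} : Finset F).card ≤ 2 := Finset.card_le_two
    rw [Finset.card_univ] at h2
    omega
  exact finish hY IsExc.G2 hcard (ExG2.core hF (hcard ▸ hY) hcard hs1 hs2)

theorem recog_TD4 {K : Type} [Field K] [Fintype K] {q : ℕ} (hq : IsPrimePow q) (hK : Fintype.card K = q ^ 3)
    (hcard : Nat.card G = Nat.card ↥(twistedD4 K q))
    (hs1 : ∀ x : G, ∃ y : ↥(twistedD4 K q), orderOf y = orderOf x)
    (hs2 : ∀ y : ↥(twistedD4 K q), ∃ x : G, orderOf x = orderOf y) : Nonempty (G ≃* ↥(twistedD4 K q)) := by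
  obtain ⟨p, f, hp, hf, rfl⟩ := (isPrimePow_nat_iff _).1 hq
  have hY := ExD4.td4_real K hp hf hK
  have hfin : Finite ↥(twistedD4 K (p ^ f)) := Nat.finite_of_card_ne_zero hY.M_ne
  have hsimple : IsSimpleGroup ↥(twistedD4 K (p ^ f)) := (Cfsg.Agent.S1071.result hq hK).1
  exact finish hY IsExc.TD4 hcard (ExD4.core hK (hcard ▸ hY) hcard hs1 hs2)

theorem recog_E8 {F : Type} [Field F] [Fintype F] (hcard : Nat.card G = Nat.card ↥(chevE8.group F))
    (hs1 : ∀ x : G, ∃ y : ↥(chevE8.group F), orderOf y = orderOf x)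
    (hs2 : ∀ y : ↥(chevE8.group F), ∃ x : G, orderOf x = orderOf y) : Nonempty (G ≃* ↥(chevE8.group F)) := by
  refine Cfsg.Agent.S3637.result hcard ⟨fun r _ => by rw [hcard], fun r s _ _ _ => ⟨fun ⟨x, hx⟩ => ?_, fun ⟨y, hy⟩ => ?_⟩⟩
  · obtain ⟨y, hy⟩ := hs2 x
    exact ⟨y, hy.trans hx⟩
  · obtain ⟨x, hx⟩ := hs1 y
    exact ⟨x, hx.trans hy⟩

end Cfsg.Agent.H962.ExRecog
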